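import Mathlib

/-!
# Subgroups of a simple group of order 1092 with an element of order 6

Every nontrivial proper subgroup is normal in some maximal subgroup.
-/

set_option autoImplicit false

namespace Cfsg.Agent.H547.Simple1092

open Subgroup

theorem sylow_card {X : Type*} [Group X] [Finite X] {p k m : ℕ} [hp : Fact p.Prime] (P : Sylow p X)
    (h : Nat.card X = p ^ k * m) (hm : ¬ p ∣ m) : Nat.card (P : Subgroup X) = p ^ k := by
  have hm0 : m ≠ 0 := by
    rintro rfl
    exact hm (dvd_zero p)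
  rw [P.card_eq_multiplicity, h, Nat.factorization_mul (pow_ne_zero _ hp.out.ne_zero) hm0,
    Finsupp.add_apply, hp.out.factorization_pow, Finsupp.single_eq_same,
    Nat.factorization_eq_zero_of_not_dvd hm, add_zero]

theorem sylow_index {X : Type*} [Group X] [Finite X] {p k m : ℕ} [hp : Fact p.Prime] (P : Sylow p X)
    (h : Nat.card X = p ^ k * m) (hm : ¬ p ∣ m) : (P : Subgroup X).index = m := by
  have h1 := (P : Subgroup X).card_mul_index
  rw [sylow_card P h hm, h] at h1
  exact Nat.eq_of_mul_eq_mul_left (pow_pos hp.out.pos _) h1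

theorem normal_of_card_one {X : Type*} [Group X] [Finite X] {p : ℕ} [hp : Fact p.Prime]
    (P : Sylow p X) (h : Nat.card (Sylow p X) = 1) : (P : Subgroup X).Normal := by
  have h1 := P.card_eq_index_normalizer
  rw [h] at h1
  have h2 := Subgroup.index_eq_one.mp h1.symm
  exact Subgroup.normalizer_eq_top_iff.mp h2

set_option linter.unusedSectionVars false

section L

variable {L : Type*} [Group L] [Finite L] [IsSimpleGroup L]

instance f13 : Fact (Nat.Prime 13) := ⟨by norm_num⟩
instance f7 : Fact (Nat.Prime 7) := ⟨by norm_num⟩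
instance f3 : Fact (Nat.Prime 3) := ⟨by norm_num⟩

theorem ne_top_of_card {H : Subgroup L} (hL : Nat.card L = 1092) (h : Nat.card H < 1092) : H ≠ ⊤ := by
  rintro rfl
  rw [Subgroup.card_top] at h
  omega

theorem card_sylow_ne_one {p : ℕ} [hp : Fact p.Prime] (P : Sylow p L) (h1 : Nat.card (P : Subgroup L) ≠ 1)
    (h2 : Nat.card (P : Subgroup L) ≠ Nat.card L) : Nat.card (Sylow p L) ≠ 1 := by
  intro h
  rcases IsSimpleGroup.eq_bot_or_eq_top_of_normal (P : Subgroup L) (normal_of_card_one P h) with h3 | h3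
  · exact h1 (by rw [h3, Subgroup.card_bot])
  · exact h2 (by rw [h3, Subgroup.card_top])

theorem card13 (hL : Nat.card L = 1092) (P : Sylow 13 L) : Nat.card (P : Subgroup L) = 13 := by
  rw [sylow_card (k := 1) (m := 84) P (by rw [hL]; norm_num) (by norm_num), pow_one]

theorem card7 (hL : Nat.card L = 1092) (P : Sylow 7 L) : Nat.card (P : Subgroup L) = 7 := by
  rw [sylow_card (k := 1) (m := 156) P (by rw [hL]; norm_num) (by norm_num), pow_one]

theorem card3 (hL : Nat.card L = 1092) (P : Sylow 3 L) : Nat.card (P : Subgroup L) = 3 := by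
  rw [sylow_card (k := 1) (m := 364) P (by rw [hL]; norm_num) (by norm_num), pow_one]

theorem card2 (hL : Nat.card L = 1092) (P : Sylow 2 L) : Nat.card (P : Subgroup L) = 4 := by
  have h := sylow_card (k := 2) (m := 273) P (by rw [hL]; norm_num) (by norm_num)
  rw [h]; norm_num

theorem n13 (hL : Nat.card L = 1092) : Nat.card (Sylow 13 L) = 14 := by
  obtain ⟨P⟩ : Nonempty (Sylow 13 L) := inferInstance
  have h1 : Nat.card (Sylow 13 L) ∣ 84 := by
    have h2 := P.card_dvd_index
    rwa [sylow_index (k := 1) (m := 84) P (by rw [hL]; norm_num) (by norm_num)] at h2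
  have h2 : Nat.card (Sylow 13 L) % 13 = 1 := card_sylow_modEq_one 13 L
  have h3 := card_sylow_ne_one P (by rw [card13 hL]; norm_num) (by rw [card13 hL, hL]; norm_num)
  have h4 : ∀ c ∈ Nat.divisors 84, c % 13 = 1 → c ≠ 1 → c = 14 := by decide
  exact h4 _ (Nat.mem_divisors.mpr ⟨h1, by norm_num⟩) h2 h3

theorem n7 (hL : Nat.card L = 1092) : Nat.card (Sylow 7 L) = 78 := by
  obtain ⟨P⟩ : Nonempty (Sylow 7 L) := inferInstance
  have h1 : Nat.card (Sylow 7 L) ∣ 156 := by
    have h2 := P.card_dvd_index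
    rwa [sylow_index (k := 1) (m := 156) P (by rw [hL]; norm_num) (by norm_num)] at h2
  have h2 : Nat.card (Sylow 7 L) % 7 = 1 := card_sylow_modEq_one 7 L
  have h3 := card_sylow_ne_one P (by rw [card7 hL]; norm_num) (by rw [card7 hL, hL]; norm_num)
  have h4 : ∀ c ∈ Nat.divisors 156, c % 7 = 1 → c ≠ 1 → c = 78 := by decide
  exact h4 _ (Nat.mem_divisors.mpr ⟨h1, by norm_num⟩) h2 h3

theorem cardN13 (hL : Nat.card L = 1092) (P : Sylow 13 L) :
    Nat.card (Subgroup.normalizer ((P : Subgroup L) : Set L)) = 78 := by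
  have h1 : (Subgroup.normalizer ((P : Subgroup L) : Set L)).index = 14 :=
    P.card_eq_index_normalizer.symm.trans (n13 hL)
  have h2 := (Subgroup.normalizer ((P : Subgroup L) : Set L)).card_mul_index
  rw [h1, hL] at h2
  omega

theorem cardN7 (hL : Nat.card L = 1092) (P : Sylow 7 L) :
    Nat.card (Subgroup.normalizer ((P : Subgroup L) : Set L)) = 14 := by
  have h1 : (Subgroup.normalizer ((P : Subgroup L) : Set L)).index = 78 :=
    P.card_eq_index_normalizer.symm.trans (n7 hL)
  have h2 := (Subgroup.normalizer ((P : Subgroup L) : Set L)).card_mul_index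
  rw [h1, hL] at h2
  omega

/-- A Sylow subgroup of `M` which is a Sylow subgroup of `L`. -/
theorem exists_sylow' {p : ℕ} [hp : Fact p.Prime] {M : Subgroup L} (hp1 : ¬ p ^ 2 ∣ Nat.card L)
    (hM : p ∣ Nat.card M) (Q : Sylow p M) : ∃ (P : Sylow p L) (h : (P : Subgroup L) ≤ M),
      P.subtype h = Q := by
  obtain ⟨P, hP⟩ := Q.exists_comap_subtype_eq
  suffices hPM : (P : Subgroup L) ≤ M from ⟨P, hPM, Sylow.ext hP⟩
  have h1 : p ∣ Nat.card (Q : Subgroup M) := Q.dvd_card_of_dvd_card hM
  have h2 : Nat.card (P : Subgroup L) ∣ p := by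
    obtain ⟨k, hk⟩ := IsPGroup.iff_card.mp P.2
    rw [hk]
    have h3 : k ≤ 1 := by
      by_contra h4
      apply hp1
      refine (pow_dvd_pow p (by omega : 2 ≤ k)).trans ?_
      rw [← hk]
      exact Subgroup.card_subgroup_dvd_card _
    calc p ^ k ∣ p ^ 1 := pow_dvd_pow p h3
      _ = p := pow_one p
  have h3 : ((P : Subgroup L) ⊓ M) = P := by
    apply Subgroup.eq_of_le_of_card_ge inf_le_left
    have h4 : Nat.card ↥((P : Subgroup L) ⊓ M) = Nat.card (Q : Subgroup M) := by
      rw [← hP]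
      change _ = Nat.card ↥((P : Subgroup L).subgroupOf M)
      rw [← Subgroup.inf_subgroupOf_right]
      exact (Nat.card_congr (Subgroup.subgroupOfEquivOfLe inf_le_right).toEquiv).symm
    rw [h4]
    exact Nat.le_of_dvd Nat.card_pos (h2.trans h1)
  exact inf_eq_left.mp h3

theorem exists_sylow {p : ℕ} [hp : Fact p.Prime] {M : Subgroup L} (hp1 : ¬ p ^ 2 ∣ Nat.card L)
    (hM : p ∣ Nat.card M) : ∃ P : Sylow p L, (P : Subgroup L) ≤ M := by
  obtain ⟨Q⟩ : Nonempty (Sylow p M) := inferInstance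
  obtain ⟨P, h, -⟩ := exists_sylow' hp1 hM Q
  exact ⟨P, h⟩

/-- the number of Sylow `p`-subgroups of `M` is one: they are normal -/
theorem le_normalizer_of_unique {p : ℕ} [hp : Fact p.Prime] {M : Subgroup L} (P : Sylow p L)
    (hPM : (P : Subgroup L) ≤ M) (h : Nat.card (Sylow p M) = 1) :
    M ≤ Subgroup.normalizer ((P : Subgroup L) : Set L) := by
  have h1 := normal_of_card_one (P.subtype hPM) h
  rw [Sylow.coe_subtype] at h1
  exact (Subgroup.normal_subgroupOf_iff_le_normalizer hPM).mp h1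

theorem card_sylow_dvd {p : ℕ} [hp : Fact p.Prime] {M : Subgroup L} (P : Sylow p L)
    (hPM : (P : Subgroup L) ≤ M) : Nat.card (Sylow p M) * Nat.card (P : Subgroup L) ∣ Nat.card M := by
  have h1 := (P.subtype hPM).card_dvd_index
  have h2 := ((P.subtype hPM : Sylow p M) : Subgroup M).card_mul_index
  have h3 : Nat.card ((P.subtype hPM : Sylow p M) : Subgroup M) = Nat.card (P : Subgroup L) := by
    rw [Sylow.coe_subtype]
    exact Nat.card_congr (Subgroup.subgroupOfEquivOfLe hPM).toEquiv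
  rw [h3] at h2
  rw [← h2, mul_comm]
  exact mul_dvd_mul_left _ h1

/-- subgroups containing all Sylow `p`-subgroups -/
theorem eq_top_of_all {p : ℕ} [Fact p.Prime] {M : Subgroup L} (P : Sylow p L)
    (hP : (P : Subgroup L) ≠ ⊥) (h : ∀ Q : Sylow p L, (Q : Subgroup L) ≤ M) : M = ⊤ := by
  have h1 : Subgroup.normalClosure ((P : Subgroup L) : Set L) ≤ M := by
    rw [Subgroup.normalClosure, Subgroup.closure_le]
    intro x hx
    obtain ⟨a, ha, hax⟩ := Group.mem_conjugatesOfSet_iff.mp hx
    obtain ⟨g, rfl⟩ := isConj_iff.mp hax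
    refine h (g • P) ?_
    rw [Sylow.smul_def]
    exact Subgroup.smul_mem_pointwise_smul a (MulAut.conj g) (P : Subgroup L) ha
  rcases IsSimpleGroup.eq_bot_or_eq_top_of_normal (Subgroup.normalClosure ((P : Subgroup L) : Set L))
    inferInstance with h2 | h2
  · exfalso
    apply hP
    rw [eq_bot_iff, ← h2]
    exact Subgroup.subset_normalClosure
  · rw [h2] at h1
    exact top_le_iff.mp h1

theorem M13 (hL : Nat.card L = 1092) {M : Subgroup L} (hM : M ≠ ⊤) (P : Sylow 13 L)
    (hPM : (P : Subgroup L) ≤ M) : M ≤ Subgroup.normalizer ((P : Subgroup L) : Set L) := by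
  apply le_normalizer_of_unique P hPM
  have hd := card_sylow_dvd P hPM
  rw [card13 hL] at hd
  have h1 : Nat.card (Sylow 13 M) ∣ 84 := by
    have h2 : Nat.card (Sylow 13 M) * 13 ∣ 84 * 13 := by
      refine hd.trans ?_
      have h3 := Subgroup.card_subgroup_dvd_card M
      rw [hL] at h3
      exact h3
    exact Nat.dvd_of_mul_dvd_mul_right (by norm_num) h2
  have h2 : Nat.card (Sylow 13 M) % 13 = 1 := card_sylow_modEq_one 13 M
  have h4 : ∀ c ∈ Nat.divisors 84, c % 13 = 1 → c = 1 ∨ c = 14 := by decide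
  rcases h4 _ (Nat.mem_divisors.mpr ⟨h1, by norm_num⟩) h2 with h5 | h5
  · exact h5
  · exfalso
    apply hM
    have hdvd : 13 ∣ Nat.card M := by
      have := Subgroup.card_dvd_of_le hPM
      rwa [card13 hL] at this
    -- the Sylow subgroups in `M`
    let φ : Sylow 13 M → Sylow 13 L := fun Q =>
      (exists_sylow' (p := 13) (M := M) (by rw [hL]; norm_num) hdvd Q).choose
    have hφ : ∀ Q : Sylow 13 M, ∃ h : (φ Q : Subgroup L) ≤ M, (φ Q).subtype h = Q := fun Q =>
      (exists_sylow' (p := 13) (M := M) (by rw [hL]; norm_num) hdvd Q).choose_spec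
    have hinj : Function.Injective φ := by
      intro Q R hQR
      obtain ⟨h6, h7⟩ := hφ Q
      obtain ⟨h8, h9⟩ := hφ R
      rw [← h7, ← h9]
      congr 1
    have hbij : Function.Bijective φ :=
      (Nat.bijective_iff_injective_and_card φ).mpr ⟨hinj, by rw [h5, n13 hL]⟩
    refine eq_top_of_all P ?_ ?_
    · intro h6
      have h7 := card13 hL P
      rw [h6, Subgroup.card_bot] at h7
      norm_num at h7
    · intro Q
      obtain ⟨R, rfl⟩ := hbij.2 Q
      exact (hφ R).1

/-- the order of a proper subgroup divides 78, 14 or 12 -/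
theorem card_proper (hL : Nat.card L = 1092) {M : Subgroup L} (hM : M ≠ ⊤) :
    (13 ∣ Nat.card M ∧ Nat.card M ∣ 78) ∨ (7 ∣ Nat.card M ∧ Nat.card M ∣ 14) ∨ Nat.card M ∣ 12 := by
  have hd := Subgroup.card_subgroup_dvd_card M
  rw [hL] at hd
  by_cases h13 : 13 ∣ Nat.card M
  · left
    obtain ⟨P, hP⟩ := exists_sylow (by rw [hL]; norm_num) h13
    refine ⟨h13, ?_⟩
    rw [← cardN13 hL P]
    exact Subgroup.card_dvd_of_le (M13 hL hM P hP)
  · right
    have h84 : Nat.card M ∣ 84 := by
      have h1 : Nat.card M ∣ 13 * 84 := by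
        rw [show 13 * 84 = 1092 by norm_num]; exact hd
      exact Nat.Coprime.dvd_of_dvd_mul_left
        ((Nat.Prime.coprime_iff_not_dvd f13.out).mpr h13).symm h1
    by_cases h7 : 7 ∣ Nat.card M
    · left
      obtain ⟨P, hP⟩ := exists_sylow (by rw [hL]; norm_num) h7
      refine ⟨h7, ?_⟩
      rw [← cardN7 hL P]
      refine Subgroup.card_dvd_of_le (le_normalizer_of_unique P hP ?_)
      have hd2 := card_sylow_dvd P hP
      rw [card7 hL] at hd2
      have h1 : Nat.card (Sylow 7 M) ∣ 12 :=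
        Nat.dvd_of_mul_dvd_mul_right (by norm_num : 0 < 7) (hd2.trans h84)
      have h2 : Nat.card (Sylow 7 M) % 7 = 1 := card_sylow_modEq_one 7 M
      have h4 : ∀ c ∈ Nat.divisors 12, c % 7 = 1 → c = 1 := by decide
      exact h4 _ (Nat.mem_divisors.mpr ⟨h1, by norm_num⟩) h2
    · right
      have h1 : Nat.card M ∣ 7 * 12 := h84
      exact Nat.Coprime.dvd_of_dvd_mul_left
        ((Nat.Prime.coprime_iff_not_dvd f7.out).mpr h7).symm h1

theorem M7 (hL : Nat.card L = 1092) {M : Subgroup L} (hM : M ≠ ⊤) (P : Sylow 7 L)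
    (hPM : (P : Subgroup L) ≤ M) : M ≤ Subgroup.normalizer ((P : Subgroup L) : Set L) := by
  apply le_normalizer_of_unique P hPM
  have h7 : 7 ∣ Nat.card M := by
    have := Subgroup.card_dvd_of_le hPM
    rwa [card7 hL] at this
  have hd2 := card_sylow_dvd P hPM
  rw [card7 hL] at hd2
  have h84 : Nat.card M ∣ 14 := by
    rcases card_proper hL hM with h | h | h
    · exfalso
      have := h7.trans h.2
      norm_num at this
    · exact h.2
    · exfalso
      have := h7.trans h
      norm_num at this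
  have h1 : Nat.card (Sylow 7 M) ∣ 2 :=
    Nat.dvd_of_mul_dvd_mul_right (by norm_num : 0 < 7) (hd2.trans h84)
  have h2 : Nat.card (Sylow 7 M) % 7 = 1 := card_sylow_modEq_one 7 M
  have h4 : ∀ c ∈ Nat.divisors 2, c % 7 = 1 → c = 1 := by decide
  exact h4 _ (Nat.mem_divisors.mpr ⟨h1, by norm_num⟩) h2

/-- a proper subgroup of order divisible by `12` has order `12` -/
theorem card_eq_twelve (hL : Nat.card L = 1092) {M : Subgroup L} (hM : M ≠ ⊤)
    (h12 : 12 ∣ Nat.card M) : Nat.card M = 12 := by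
  rcases card_proper hL hM with h | h | h
  · exfalso
    have := h12.trans h.2
    norm_num at this
  · exfalso
    have := h12.trans h.2
    norm_num at this
  · exact Nat.dvd_antisymm h h12

theorem isCoatom_of_card (hL : Nat.card L = 1092) {M : Subgroup L} (hM : Nat.card M = 12) :
    IsCoatom M := by
  refine ⟨ne_top_of_card hL (by rw [hM]; norm_num), ?_⟩
  intro K hK
  by_contra hK1
  have h1 : 12 ∣ Nat.card K := hM ▸ Subgroup.card_dvd_of_le hK.le
  have h2 := card_eq_twelve hL hK1 h1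
  have h3 := Subgroup.eq_of_le_of_card_ge hK.le (by rw [h2, hM])
  exact hK.ne h3

theorem normalizer_ne_top (_hL : Nat.card L = 1092) {H : Subgroup L} (h1 : H ≠ ⊥) (h2 : H ≠ ⊤) :
    Subgroup.normalizer (H : Set L) ≠ ⊤ := by
  intro h
  have h3 : H.Normal := Subgroup.normalizer_eq_top_iff.mp h
  rcases IsSimpleGroup.eq_bot_or_eq_top_of_normal H h3 with h4 | h4
  · exact h1 h4
  · exact h2 h4

theorem centralizer_le_normalizer_zpowers (s : L) :
    Subgroup.centralizer {s} ≤ Subgroup.normalizer ((Subgroup.zpowers s : Subgroup L) : Set L) := by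
  intro g hg
  rw [Subgroup.mem_centralizer_singleton_iff] at hg
  rw [Subgroup.mem_normalizer_iff]
  have hgs : g * s * g⁻¹ = s := by rw [hg]; group
  intro x
  have key : ∀ i : ℤ, g * s ^ i * g⁻¹ = s ^ i := by
    intro i
    rw [← conj_zpow, hgs]
  constructor
  · intro hx
    obtain ⟨i, rfl⟩ := Subgroup.mem_zpowers_iff.mp hx
    rw [key]
    exact hx
  · intro hx
    obtain ⟨i, hi⟩ := Subgroup.mem_zpowers_iff.mp hx
    have h1 : x = s ^ i := by
      have h2 := key i
      rw [hi] at h2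
      have h3 : g * (g * x * g⁻¹) * g⁻¹ = g * x * g⁻¹ := h2
      have h4 : g * x * g⁻¹ = x := by
        have := congrArg (fun z => g⁻¹ * z * g) h3
        simpa [mul_assoc] using this
      rw [← h4, ← hi]
    rw [h1]
    exact Subgroup.mem_zpowers_iff.mpr ⟨i, rfl⟩

theorem centralizer_ne_top (hL : Nat.card L = 1092) {s : L} (hs : s ≠ 1) (ho : orderOf s < 1092) :
    Subgroup.centralizer {s} ≠ ⊤ := by
  intro h
  have h1 := centralizer_le_normalizer_zpowers s
  rw [h, top_le_iff] at h1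
  refine normalizer_ne_top hL ?_ ?_ h1
  · rwa [Ne, Subgroup.zpowers_eq_bot]
  · exact ne_top_of_card hL (by rw [Nat.card_zpowers]; exact ho)

theorem sylow2_comm (hL : Nat.card L = 1092) (V : Sylow 2 L) : ∀ x ∈ V, ∀ y ∈ V, x * y = y * x := by
  intro x hx y hy
  have h1 : Nat.card (V : Subgroup L) = 2 ^ 2 := by rw [card2 hL]; norm_num
  have := Fact.mk Nat.prime_two
  have h2 := IsPGroup.isMulCommutative_of_card_eq_prime_sq h1
  exact congrArg Subtype.val (h2.is_comm.comm (⟨x, hx⟩ : (V : Subgroup L)) ⟨y, hy⟩)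

theorem four_dvd (hL : Nat.card L = 1092) {t : L} (ht2 : t * t = 1) :
    4 ∣ Nat.card (Subgroup.centralizer ({t} : Set L)) := by
  have := Fact.mk Nat.prime_two
  have h1 : IsPGroup 2 (Subgroup.zpowers t) :=
    IsPGroup.of_card_dvd_pow (n := 1) (by
      rw [Nat.card_zpowers, pow_one]
      exact orderOf_dvd_of_pow_eq_one (by rw [pow_two]; exact ht2))
  obtain ⟨V, hV⟩ := h1.exists_le_sylow
  have htV : t ∈ V := hV (Subgroup.mem_zpowers t)
  rw [← card2 hL V]
  apply Subgroup.card_dvd_of_le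
  intro v hv
  rw [Subgroup.mem_centralizer_singleton_iff]
  exact sylow2_comm hL V v hv t htV

/-- `|C(y³)| = 12` for `y` of order `6`. -/
theorem cardC (hL : Nat.card L = 1092) {y : L} (hy : orderOf y = 6) :
    Nat.card (Subgroup.centralizer ({y ^ 3} : Set L)) = 12 := by
  have ho : orderOf (y ^ 3) = 2 := by
    rw [orderOf_pow, hy]; norm_num
  have ht1 : y ^ 3 ≠ 1 := by
    intro h
    rw [h, orderOf_one] at ho
    norm_num at ho
  have htt : y ^ 3 * y ^ 3 = 1 := by
    rw [← pow_two, ← ho, pow_orderOf_eq_one]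
  have h4 := four_dvd hL htt
  have h6 : 6 ∣ Nat.card (Subgroup.centralizer ({y ^ 3} : Set L)) := by
    rw [← hy]
    apply Subgroup.orderOf_dvd_natCard
    rw [Subgroup.mem_centralizer_singleton_iff]
    exact ((Commute.refl y).pow_right 3).eq
  have h12 : 12 ∣ Nat.card (Subgroup.centralizer ({y ^ 3} : Set L)) := by
    have := Nat.lcm_dvd h4 h6
    exact this
  exact card_eq_twelve hL (centralizer_ne_top hL ht1 (by rw [ho]; norm_num)) h12

/-- `|N(⟨y²⟩)| = 12` for `y` of order `6`. -/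
theorem cardN3' (hL : Nat.card L = 1092) {y : L} (hy : orderOf y = 6) :
    Nat.card (Subgroup.normalizer ((Subgroup.zpowers (y ^ 2) : Subgroup L) : Set L)) = 12 := by
  have hyC : Subgroup.zpowers y ≤ Subgroup.centralizer ({y ^ 3} : Set L) := by
    rw [Subgroup.zpowers_le, Subgroup.mem_centralizer_singleton_iff]
    exact ((Commute.refl y).pow_right 3).eq
  have hidx : ((Subgroup.zpowers y).subgroupOf (Subgroup.centralizer ({y ^ 3} : Set L))).index = 2 := by
    have h1 := ((Subgroup.zpowers y).subgroupOf (Subgroup.centralizer ({y ^ 3} : Set L))).card_mul_index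
    rw [Nat.card_congr (Subgroup.subgroupOfEquivOfLe hyC).toEquiv, Nat.card_zpowers, hy, cardC hL hy] at h1
    omega
  have hn := Subgroup.normal_of_index_eq_two hidx
  have hle := (Subgroup.normal_subgroupOf_iff_le_normalizer hyC).mp hn
  have hle2 : Subgroup.centralizer ({y ^ 3} : Set L) ≤
      Subgroup.normalizer ((Subgroup.zpowers (y ^ 2) : Subgroup L) : Set L) := by
    intro c hc
    apply Subgroup.mem_normalizer_fintype
    intro x hx
    obtain ⟨i, rfl⟩ := Subgroup.mem_zpowers_iff.mp hx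
    have h1 : c * y * c⁻¹ ∈ Subgroup.zpowers y :=
      (Subgroup.mem_normalizer_iff.mp (hle hc) y).mp (Subgroup.mem_zpowers y)
    obtain ⟨j, hj⟩ := Subgroup.mem_zpowers_iff.mp h1
    refine Subgroup.mem_zpowers_iff.mpr ⟨j * i, ?_⟩
    have h2 : c * (y ^ 2) ^ i * c⁻¹ = (c * y * c⁻¹) ^ (2 * i) := by
      rw [conj_zpow, zpow_mul]
      norm_cast
    rw [h2, ← hj, ← zpow_mul, ← zpow_natCast y 2, ← zpow_mul]
    congr 1
    push_cast
    ring
  have h12 : 12 ∣ Nat.card (Subgroup.normalizer ((Subgroup.zpowers (y ^ 2) : Subgroup L) : Set L)) := by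
    rw [← cardC hL hy]
    exact Subgroup.card_dvd_of_le hle2
  have ho : orderOf (y ^ 2) = 3 := by
    rw [orderOf_pow, hy]; norm_num
  refine card_eq_twelve hL (normalizer_ne_top hL ?_ ?_) h12
  · intro h
    rw [Subgroup.zpowers_eq_bot] at h
    rw [h, orderOf_one] at ho
    norm_num at ho
  · exact ne_top_of_card hL (by rw [Nat.card_zpowers, ho]; norm_num)

theorem cardN3 (hL : Nat.card L = 1092) (h6 : ∃ y : L, orderOf y = 6) (P : Sylow 3 L) :
    Nat.card (Subgroup.normalizer ((P : Subgroup L) : Set L)) = 12 := by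
  obtain ⟨y, hy⟩ := h6
  have ho : orderOf (y ^ 2) = 3 := by
    rw [orderOf_pow, hy]; norm_num
  have h1 : IsPGroup 3 (Subgroup.zpowers (y ^ 2)) :=
    IsPGroup.of_card_dvd_pow (n := 1) (by rw [Nat.card_zpowers, pow_one, ho])
  obtain ⟨Q, hQ⟩ := h1.exists_le_sylow
  have h2 : Subgroup.zpowers (y ^ 2) = (Q : Subgroup L) :=
    Subgroup.eq_of_le_of_card_ge hQ (by rw [card3 hL, Nat.card_zpowers, ho])
  have h3 := cardN3' hL hy
  rw [h2] at h3
  have h4 := (Subgroup.normalizer ((Q : Subgroup L) : Set L)).card_mul_index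
  have h5 := (Subgroup.normalizer ((P : Subgroup L) : Set L)).card_mul_index
  have h6 : (Subgroup.normalizer ((Q : Subgroup L) : Set L)).index = Nat.card (Sylow 3 L) :=
    Q.card_eq_index_normalizer.symm
  have h7 : (Subgroup.normalizer ((P : Subgroup L) : Set L)).index = Nat.card (Sylow 3 L) :=
    P.card_eq_index_normalizer.symm
  rw [h6, h3] at h4
  rw [h7, ← h4] at h5
  have h8 : 0 < Nat.card (Sylow 3 L) := Nat.card_pos
  exact Nat.eq_of_mul_eq_mul_right h8 h5

/-- Burnside -/
theorem not_burnside (hL : Nat.card L = 1092) (V : Sylow 2 L) :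
    ¬ Subgroup.normalizer ((V : Subgroup L) : Set L) ≤ Subgroup.centralizer ((V : Subgroup L) : Set L) := by
  intro h
  have := Fact.mk Nat.prime_two
  have h1 := MonoidHom.ker_transferSylow_isComplement' V h
  have h2 := h1.card_mul_card
  rw [card2 hL, hL] at h2
  rcases IsSimpleGroup.eq_bot_or_eq_top_of_normal (MonoidHom.transferSylow V h).ker inferInstance with h3 | h3
  · rw [h3, Subgroup.card_bot] at h2
    norm_num at h2
  · rw [h3, Subgroup.card_top, hL] at h2
    norm_num at h2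

theorem sylow_le_centralizer (hL : Nat.card L = 1092) (V : Sylow 2 L) :
    (V : Subgroup L) ≤ Subgroup.centralizer ((V : Subgroup L) : Set L) := by
  intro x hx
  rw [Subgroup.mem_centralizer_iff]
  intro y hy
  exact sylow2_comm hL V y hy x hx

theorem cardNV (hL : Nat.card L = 1092) (V : Sylow 2 L) :
    Nat.card (Subgroup.normalizer ((V : Subgroup L) : Set L)) = 12 := by
  have hne : Subgroup.normalizer ((V : Subgroup L) : Set L) ≠ ⊤ := by
    refine normalizer_ne_top hL ?_ (ne_top_of_card hL (by rw [card2 hL]; norm_num))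
    intro h
    have := card2 hL V
    rw [h, Subgroup.card_bot] at this
    norm_num at this
  have h4 : 4 ∣ Nat.card (Subgroup.normalizer ((V : Subgroup L) : Set L)) := by
    have := Subgroup.card_dvd_of_le (Subgroup.le_normalizer (H := (V : Subgroup L)))
    rwa [card2 hL] at this
  rcases card_proper hL hne with h | h | h
  · exfalso
    have := h4.trans h.2
    norm_num at this
  · exfalso
    have := h4.trans h.2
    norm_num at this
  · have h5 : ∀ c ∈ Nat.divisors 12, 4 ∣ c → c = 4 ∨ c = 12 := by decide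
    rcases h5 _ (Nat.mem_divisors.mpr ⟨h, by norm_num⟩) h4 with h6 | h6
    · exfalso
      have h7 : (V : Subgroup L) = Subgroup.normalizer ((V : Subgroup L) : Set L) :=
        Subgroup.eq_of_le_of_card_ge Subgroup.le_normalizer (by rw [h6, card2 hL])
      apply not_burnside hL V
      rw [← h7]
      exact sylow_le_centralizer hL V
    · exact h6

/-- an element of order 3 of `N(V)` does not centralise `V`. -/
theorem not_centralize (hL : Nat.card L = 1092) (V : Sylow 2 L) {g : L} (hg : orderOf g = 3)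
    (hgC : g ∈ Subgroup.centralizer ((V : Subgroup L) : Set L)) : False := by
  have h1 : Subgroup.centralizer ((V : Subgroup L) : Set L) ≤
      Subgroup.normalizer ((V : Subgroup L) : Set L) := Subgroup.centralizer_le_normalizer _
  have h4 : 4 ∣ Nat.card (Subgroup.centralizer ((V : Subgroup L) : Set L)) := by
    have := Subgroup.card_dvd_of_le (sylow_le_centralizer hL V)
    rwa [card2 hL] at this
  have h3 : 3 ∣ Nat.card (Subgroup.centralizer ((V : Subgroup L) : Set L)) := by
    rw [← hg]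
    exact Subgroup.orderOf_dvd_natCard _ hgC
  have h12 : 12 ∣ Nat.card (Subgroup.centralizer ((V : Subgroup L) : Set L)) := Nat.lcm_dvd h4 h3
  have h5 := Subgroup.eq_of_le_of_card_ge h1 (by
    rw [cardNV hL]
    exact Nat.le_of_dvd Nat.card_pos h12)
  exact not_burnside hL V h5.ge

/-- the elements of `V` -/
theorem mem_V (hL : Nat.card L = 1092) (V : Sylow 2 L) {s t : L} (hs : s ∈ V) (ht : t ∈ V)
    (hs1 : s ≠ 1) (ht1 : t ≠ 1) (hst : s ≠ t) (hss : s * s = 1) {v : L} (hv : v ∈ V) :
    v = 1 ∨ v = s ∨ v = t ∨ v = s * t := by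
  classical
  have hst1 : s * t ≠ 1 := by
    intro h
    apply hst
    have h1 : s⁻¹ = t := inv_eq_of_mul_eq_one_right h
    have h2 : s⁻¹ = s := inv_eq_of_mul_eq_one_right hss
    rw [← h1, h2]
  have hsts : s * t ≠ s := fun h => ht1 (mul_eq_left.mp h)
  have hstt : s * t ≠ t := fun h => hs1 (mul_eq_right.mp h)
  let A : Finset L := {1, s, t, s * t}
  have hA : A.card = 4 := by
    rw [Finset.card_insert_of_notMem, Finset.card_insert_of_notMem, Finset.card_insert_of_notMem,
      Finset.card_singleton]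
    · simpa using hstt.symm
    · simp only [Finset.mem_insert, Finset.mem_singleton, not_or]
      exact ⟨hst, hsts.symm⟩
    · simp only [Finset.mem_insert, Finset.mem_singleton, not_or]
      exact ⟨hs1.symm, ht1.symm, hst1.symm⟩
  have hAV : (A : Set L) ⊆ ((V : Subgroup L) : Set L) := by
    intro x hx
    simp only [A, Finset.coe_insert, Finset.coe_singleton, Set.mem_insert_iff, Set.mem_singleton_iff] at hx
    rcases hx with rfl | rfl | rfl | rfl
    · exact one_mem (V : Subgroup L)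
    · exact hs
    · exact ht
    · exact mul_mem (S := Subgroup L) (s := (V : Subgroup L)) hs ht
  have hVA : (A : Set L) = ((V : Subgroup L) : Set L) := by
    apply Set.eq_of_subset_of_ncard_le hAV
    rw [Set.ncard_coe_finset, hA, ← Nat.card_coe_set_eq]
    exact (card2 hL V).le
  have hvA : v ∈ (A : Set L) := by
    rw [hVA]; exact hv
  simpa [A] using hvA

theorem inv_conj (hL : Nat.card L = 1092) (V : Sylow 2 L) {s t : L} (hs : s ∈ V) (ht : t ∈ V)
    (hs1 : s ≠ 1) (ht1 : t ≠ 1) (hss : s * s = 1) (htt : t * t = 1) : ∃ g : L, g * s * g⁻¹ = t := by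
  by_cases hst : s = t
  · exact ⟨1, by rw [hst]; group⟩
  obtain ⟨⟨g, hgN⟩, hg⟩ := exists_prime_orderOf_dvd_card' (G := Subgroup.normalizer ((V : Subgroup L) : Set L)) 3
    (by rw [cardNV hL]; norm_num)
  rw [Subgroup.orderOf_mk] at hg
  have hVconj : ∀ v ∈ V, g * v * g⁻¹ ∈ V := fun v hv => (Subgroup.mem_normalizer_iff.mp hgN v).mp hv
  have hconj1 : ∀ v : L, v ≠ 1 → g * v * g⁻¹ ≠ 1 := by
    intro v hv h
    rw [mul_inv_eq_one] at h
    exact hv (mul_eq_left.mp h)
  have hg4 : g ^ 4 = g := by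
    have : g ^ 3 = 1 := by rw [← hg, pow_orderOf_eq_one]
    rw [pow_succ, this, one_mul]
  have hinj : ∀ v w : L, g * v * g⁻¹ = g * w * g⁻¹ → v = w := by
    intro v w h
    simpa using h
  -- no involution is fixed
  have hfix : ∀ s t : L, s ∈ V → t ∈ V → s ≠ 1 → t ≠ 1 → s ≠ t → s * s = 1 → t * t = 1 →
      g * s * g⁻¹ ≠ s := by
    intro s t hs ht hs1 ht1 hst hss htt hgs
    have hgt : g * t * g⁻¹ = t := by
      rcases mem_V hL V hs ht hs1 ht1 hst hss (hVconj t ht) with h | h | h | h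
      · exact absurd h (hconj1 t ht1)
      · exact absurd (hinj t s (by rw [h, hgs])) (Ne.symm hst)
      · exact h
      · -- `g² t g⁻² = t`
        have h2 : g * (g * t * g⁻¹) * g⁻¹ = t := by
          rw [h]
          calc g * (s * t) * g⁻¹ = (g * s * g⁻¹) * (g * t * g⁻¹) := by group
            _ = s * (s * t) := by rw [hgs, h]
            _ = t := by rw [← mul_assoc, hss, one_mul]
        have h3 : g ^ 2 * t = t * g ^ 2 := by
          have h4 : g ^ 2 * t * (g ^ 2)⁻¹ = t := by
            rw [← h2]; rw [pow_two]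
            have : g * g * (g * (g * t * g⁻¹) * g⁻¹) * (g * g)⁻¹ = g * (g * (g * (g * t * g⁻¹) * g⁻¹) * g⁻¹) * g⁻¹ := by
              group
            rw [this, h2, h2]
          rwa [mul_inv_eq_iff_eq_mul] at h4
        have h4 : Commute (g ^ 2) t := h3
        have h5 : Commute ((g ^ 2) ^ 2) t := h4.pow_left 2
        rw [← pow_mul, show 2 * 2 = 4 by norm_num, hg4] at h5
        rw [h5.eq]; group
    apply not_centralize hL V hg
    rw [Subgroup.mem_centralizer_iff]
    intro v hv
    have h1 : g * s = s * g := by rw [mul_inv_eq_iff_eq_mul] at hgs; exact hgs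
    have h2 : g * t = t * g := by rw [mul_inv_eq_iff_eq_mul] at hgt; exact hgt
    rcases mem_V hL V hs ht hs1 ht1 hst hss hv with rfl | rfl | rfl | rfl
    · rw [one_mul, mul_one]
    · exact h1.symm
    · exact h2.symm
    · rw [mul_assoc, ← h2, ← mul_assoc, ← h1, mul_assoc]
  have h1 := hfix s t hs ht hs1 ht1 hst hss htt
  have h2 := hfix t s ht hs ht1 hs1 (Ne.symm hst) htt hss
  rcases mem_V hL V hs ht hs1 ht1 hst hss (hVconj s hs) with h | h | h | h
  · exact absurd h (hconj1 s hs1)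
  · exact absurd h h1
  · exact ⟨g, h⟩
  · rcases mem_V hL V hs ht hs1 ht1 hst hss (hVconj t ht) with h' | h' | h' | h'
    · exact absurd h' (hconj1 t ht1)
    · refine ⟨g⁻¹, ?_⟩
      rw [← h']; group
    · exact absurd h' h2
    · exact absurd (hinj s t (by rw [h, h'])) hst

/-- every involution is the cube of an element of order 6 -/
theorem exists_six (hL : Nat.card L = 1092) (h6 : ∃ y : L, orderOf y = 6) {s : L} (hs1 : s ≠ 1)
    (hss : s * s = 1) : ∃ y : L, orderOf y = 6 ∧ y ^ 3 = s := by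
  obtain ⟨y, hy⟩ := h6
  have := Fact.mk Nat.prime_two
  have ho : orderOf (y ^ 3) = 2 := by
    rw [orderOf_pow, hy]; norm_num
  have ht1 : y ^ 3 ≠ 1 := by
    intro h
    rw [h, orderOf_one] at ho
    norm_num at ho
  have htt : y ^ 3 * y ^ 3 = 1 := by
    rw [← pow_two, ← ho, pow_orderOf_eq_one]
  have hpg : ∀ t : L, t * t = 1 → IsPGroup 2 (Subgroup.zpowers t) := fun t ht =>
    IsPGroup.of_card_dvd_pow (n := 1) (by
      rw [Nat.card_zpowers, pow_one]
      exact orderOf_dvd_of_pow_eq_one (by rw [pow_two]; exact ht))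
  obtain ⟨V, hV⟩ := (hpg _ htt).exists_le_sylow
  obtain ⟨W, hW⟩ := (hpg _ hss).exists_le_sylow
  have hyV : y ^ 3 ∈ V := hV (Subgroup.mem_zpowers _)
  have hsW : s ∈ W := hW (Subgroup.mem_zpowers _)
  obtain ⟨h, hh⟩ := MulAction.exists_smul_eq L W V
  have hsV : h * s * h⁻¹ ∈ V := by
    rw [← hh, Sylow.smul_def]
    exact Subgroup.smul_mem_pointwise_smul s (MulAut.conj h) (W : Subgroup L) hsW
  obtain ⟨g, hg⟩ := inv_conj hL V hyV hsV ht1 (by
      intro h1
      rw [mul_inv_eq_one] at h1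
      exact hs1 (mul_eq_left.mp h1)) htt (by
      calc h * s * h⁻¹ * (h * s * h⁻¹) = h * (s * s) * h⁻¹ := by group
        _ = 1 := by rw [hss]; group)
  refine ⟨(h⁻¹ * g) * y * (h⁻¹ * g)⁻¹, ?_, ?_⟩
  · rw [← hy]
    exact (MulAut.conj (h⁻¹ * g)).orderOf_eq y
  · rw [conj_pow]
    have h1 : h⁻¹ * g * y ^ 3 * (h⁻¹ * g)⁻¹ = h⁻¹ * (g * y ^ 3 * g⁻¹) * h := by group
    rw [h1, hg]; group

theorem cardC' (hL : Nat.card L = 1092) (h6 : ∃ y : L, orderOf y = 6) {s : L} (hs1 : s ≠ 1)
    (hss : s * s = 1) : Nat.card (Subgroup.centralizer ({s} : Set L)) = 12 := by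
  obtain ⟨y, hy, rfl⟩ := exists_six hL h6 hs1 hss
  exact cardC hL hy

/-- `C(P) = P` for a Sylow `13`-subgroup -/
theorem cent13 (hL : Nat.card L = 1092) (h6 : ∃ y : L, orderOf y = 6) (P : Sylow 13 L) :
    Subgroup.centralizer ((P : Subgroup L) : Set L) ≤ (P : Subgroup L) := by
  have hcyc : IsCyclic (P : Subgroup L) := isCyclic_of_prime_card (p := 13) (card13 hL P)
  have hPC : (P : Subgroup L) ≤ Subgroup.centralizer ((P : Subgroup L) : Set L) := by
    intro x hx
    rw [Subgroup.mem_centralizer_iff]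
    intro y hy
    have hc : IsMulCommutative (P : Subgroup L) := inferInstance
    exact congrArg Subtype.val (hc.is_comm.comm (⟨y, hy⟩ : (P : Subgroup L)) ⟨x, hx⟩)
  have hd : Nat.card (Subgroup.centralizer ((P : Subgroup L) : Set L)) ∣ 78 := by
    rw [← cardN13 hL P]
    exact Subgroup.card_dvd_of_le (Subgroup.centralizer_le_normalizer _)
  have h13 : 13 ∣ Nat.card (Subgroup.centralizer ((P : Subgroup L) : Set L)) := by
    have h0 := Subgroup.card_dvd_of_le hPC
    rwa [card13 hL] at h0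
  have h2 : ¬ 2 ∣ Nat.card (Subgroup.centralizer ((P : Subgroup L) : Set L)) := by
    intro h
    have := Fact.mk Nat.prime_two
    obtain ⟨⟨s, hsC⟩, hs⟩ := exists_prime_orderOf_dvd_card' 2 h
    rw [Subgroup.orderOf_mk] at hs
    have hs1 : s ≠ 1 := by
      rintro rfl
      rw [orderOf_one] at hs
      norm_num at hs
    have h3 := cardC' hL h6 hs1 (by rw [← pow_two, ← hs, pow_orderOf_eq_one])
    have h4 : (P : Subgroup L) ≤ Subgroup.centralizer ({s} : Set L) := by
      intro x hx
      rw [Subgroup.mem_centralizer_singleton_iff]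
      exact (Subgroup.mem_centralizer_iff.mp hsC x hx)
    have h5 := Subgroup.card_dvd_of_le h4
    rw [h3, card13 hL] at h5
    norm_num at h5
  have h3 : ¬ 3 ∣ Nat.card (Subgroup.centralizer ((P : Subgroup L) : Set L)) := by
    intro h
    obtain ⟨⟨s, hsC⟩, hs⟩ := exists_prime_orderOf_dvd_card' 3 h
    rw [Subgroup.orderOf_mk] at hs
    have h1 : IsPGroup 3 (Subgroup.zpowers s) :=
      IsPGroup.of_card_dvd_pow (n := 1) (by rw [Nat.card_zpowers, pow_one, hs])
    obtain ⟨Q, hQ⟩ := h1.exists_le_sylow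
    have h2 : Subgroup.zpowers s = (Q : Subgroup L) :=
      Subgroup.eq_of_le_of_card_ge hQ (by rw [card3 hL, Nat.card_zpowers, hs])
    have h3 := cardN3 hL h6 Q
    have h4 : (P : Subgroup L) ≤ Subgroup.normalizer ((Q : Subgroup L) : Set L) := by
      rw [← h2]
      refine le_trans ?_ (centralizer_le_normalizer_zpowers s)
      intro x hx
      rw [Subgroup.mem_centralizer_singleton_iff]
      exact (Subgroup.mem_centralizer_iff.mp hsC x hx)
    have h5 := Subgroup.card_dvd_of_le h4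
    rw [h3, card13 hL] at h5
    norm_num at h5
  have h4 : ∀ c ∈ Nat.divisors 78, ¬ 2 ∣ c → ¬ 3 ∣ c → c ≤ 13 := by decide
  have h5 := h4 _ (Nat.mem_divisors.mpr ⟨hd, by norm_num⟩) h2 h3
  exact (Subgroup.eq_of_le_of_card_ge hPC (by rw [card13 hL]; exact h5)).ge

theorem isCoatom_normalizer_of (_hL : Nat.card L = 1092) {H M : Subgroup L} (h1 : H ≠ ⊥) (h2 : H ≠ ⊤)
    (hM : IsCoatom M) (hMH : M ≤ Subgroup.normalizer (H : Set L)) :
    IsCoatom (Subgroup.normalizer (H : Set L)) := by
  rcases hM.le_iff.mp hMH with h | h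
  · exact absurd h (normalizer_ne_top _hL h1 h2)
  · rw [h]; exact hM

theorem isCoatom_N13 (hL : Nat.card L = 1092) (P : Sylow 13 L) :
    IsCoatom (Subgroup.normalizer ((P : Subgroup L) : Set L)) := by
  refine ⟨ne_top_of_card hL (by rw [cardN13 hL]; norm_num), ?_⟩
  intro K hK
  by_contra hK1
  exact absurd (M13 hL hK1 P (Subgroup.le_normalizer.trans hK.le)) (not_le_of_gt hK)

theorem isCoatom_N7 (hL : Nat.card L = 1092) (P : Sylow 7 L) :
    IsCoatom (Subgroup.normalizer ((P : Subgroup L) : Set L)) := by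
  refine ⟨ne_top_of_card hL (by rw [cardN7 hL]; norm_num), ?_⟩
  intro K hK
  by_contra hK1
  exact absurd (M7 hL hK1 P (Subgroup.le_normalizer.trans hK.le)) (not_le_of_gt hK)

theorem comm_of_cyclic {P : Subgroup L} (hP : IsCyclic P) {n h : L}
    (hn : n ∈ Subgroup.normalizer (P : Set L)) (hh : h ∈ Subgroup.normalizer (P : Set L)) :
    n * h * n⁻¹ * h⁻¹ ∈ Subgroup.centralizer (P : Set L) := by
  obtain ⟨⟨x, hxP⟩, hx⟩ := hP.exists_generator
  have hx' : ∀ y ∈ P, ∃ i : ℤ, x ^ i = y := by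
    intro y hy
    obtain ⟨i, hi⟩ := Subgroup.mem_zpowers_iff.mp (hx ⟨y, hy⟩)
    exact ⟨i, congrArg Subtype.val hi⟩
  obtain ⟨a, ha⟩ := hx' _ ((Subgroup.mem_normalizer_iff.mp hn x).mp hxP)
  obtain ⟨b, hb⟩ := hx' _ ((Subgroup.mem_normalizer_iff.mp hh x).mp hxP)
  have key : ∀ (g : L) (c : ℤ), x ^ c = g * x * g⁻¹ → ∀ i : ℤ, g * x ^ i * g⁻¹ = x ^ (c * i) := by
    intro g c hc i
    rw [zpow_mul, hc, conj_zpow]
  have h1 : (n * h) * x * (n * h)⁻¹ = (h * n) * x * (h * n)⁻¹ := by
    have e1 : (n * h) * x * (n * h)⁻¹ = n * (h * x * h⁻¹) * n⁻¹ := by group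
    have e2 : (h * n) * x * (h * n)⁻¹ = h * (n * x * n⁻¹) * h⁻¹ := by group
    rw [e1, e2, ← hb, ← ha, key n a ha, key h b hb, mul_comm]
  have h2 : ∀ i : ℤ, (n * h) * x ^ i * (n * h)⁻¹ = (h * n) * x ^ i * (h * n)⁻¹ := by
    intro i
    rw [← conj_zpow, ← conj_zpow, h1]
  rw [Subgroup.mem_centralizer_iff]
  intro y hy
  have hy2 : (h * n)⁻¹ * y * (h * n) ∈ P := by
    have h3 := Subgroup.inv_mem _ (Subgroup.mul_mem _ hh hn)
    have h4 := (Subgroup.mem_normalizer_iff.mp h3 y).mp hy
    rwa [inv_inv] at h4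
  obtain ⟨i, hi⟩ := hx' _ hy2
  have h3 := h2 i
  rw [hi] at h3
  have h4 : y = (h * n) * ((h * n)⁻¹ * y * (h * n)) * (h * n)⁻¹ := by group
  have h5 : n * h * n⁻¹ * h⁻¹ = (n * h) * (h * n)⁻¹ := by group
  rw [h5]
  calc y * (n * h * (h * n)⁻¹) = (h * n) * ((h * n)⁻¹ * y * (h * n)) * (h * n)⁻¹ * (n * h * (h * n)⁻¹) := by
        rw [← h4]
    _ = (n * h) * ((h * n)⁻¹ * y * (h * n)) * (n * h)⁻¹ * (n * h * (h * n)⁻¹) := by rw [h3]
    _ = n * h * (h * n)⁻¹ * y := by group

theorem isCoatom_normalizer (hL : Nat.card L = 1092) (h6 : ∃ y : L, orderOf y = 6) {H : Subgroup L}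
    (h1 : H ≠ ⊥) (h2 : H ≠ ⊤) : IsCoatom (Subgroup.normalizer (H : Set L)) := by
  have hcard1 : Nat.card H ≠ 1 := fun h => h1 (Subgroup.card_eq_one.mp h)
  rcases card_proper hL h2 with h | h | h
  · -- 13
    obtain ⟨P, hP⟩ := exists_sylow (p := 13) (by rw [hL]; norm_num) h.1
    refine isCoatom_normalizer_of hL h1 h2 (isCoatom_N13 hL P) ?_
    have hHN := M13 hL h2 P hP
    have key : ∀ n ∈ Subgroup.normalizer ((P : Subgroup L) : Set L), ∀ x ∈ H, n * x * n⁻¹ ∈ H := by
      intro n hn x hx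
      have h3 := cent13 hL h6 P (comm_of_cyclic (isCyclic_of_prime_card (p := 13) (card13 hL P)) hn (hHN hx))
      have h4 := H.mul_mem (hP h3) hx
      rwa [inv_mul_cancel_right] at h4
    intro n hn
    rw [Subgroup.mem_normalizer_iff]
    intro x
    refine ⟨key n hn x, fun hx => ?_⟩
    have h3 := key n⁻¹ (Subgroup.inv_mem _ hn) _ hx
    have h4 : n⁻¹ * (n * x * n⁻¹) * n⁻¹⁻¹ = x := by group
    rwa [h4] at h3
  · -- 7
    obtain ⟨P, hP⟩ := exists_sylow (p := 7) (by rw [hL]; norm_num) h.1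
    refine isCoatom_normalizer_of hL h1 h2 (isCoatom_N7 hL P) ?_
    have hHN := M7 hL h2 P hP
    have h3 : ∀ c ∈ Nat.divisors 14, 7 ∣ c → c = 7 ∨ c = 14 := by decide
    rcases h3 _ (Nat.mem_divisors.mpr ⟨h.2, by norm_num⟩) h.1 with h4 | h4
    · have h5 : (P : Subgroup L) = H := Subgroup.eq_of_le_of_card_ge hP (by rw [h4, card7 hL])
      rw [h5]
    · have h5 : H = Subgroup.normalizer ((P : Subgroup L) : Set L) :=
        Subgroup.eq_of_le_of_card_ge hHN (by rw [h4, cardN7 hL])
      rw [← h5]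
      exact Subgroup.le_normalizer
  · have h3 : ∀ c ∈ Nat.divisors 12, c = 1 ∨ c = 2 ∨ c = 3 ∨ c = 4 ∨ c = 6 ∨ c = 12 := by decide
    have := Fact.mk Nat.prime_two
    rcases h3 _ (Nat.mem_divisors.mpr ⟨h, by norm_num⟩) with h4 | h4 | h4 | h4 | h4 | h4
    · exact absurd h4 hcard1
    · -- 2
      obtain ⟨⟨s, hsH⟩, hs⟩ := exists_prime_orderOf_dvd_card' (G := H) 2 (by rw [h4])
      rw [Subgroup.orderOf_mk] at hs
      have h5 : Subgroup.zpowers s = H :=
        Subgroup.eq_of_le_of_card_ge (Subgroup.zpowers_le.mpr hsH) (by rw [h4, Nat.card_zpowers, hs])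
      have hs1 : s ≠ 1 := by
        rintro rfl
        rw [orderOf_one] at hs
        norm_num at hs
      refine isCoatom_normalizer_of hL h1 h2 (isCoatom_of_card hL
        (cardC' hL h6 hs1 (by rw [← pow_two, ← hs, pow_orderOf_eq_one]))) ?_
      rw [← h5]
      exact centralizer_le_normalizer_zpowers s
    · -- 3
      obtain ⟨P, hP⟩ := exists_sylow (p := 3) (M := H) (by rw [hL]; norm_num) (by rw [h4])
      have h5 : (P : Subgroup L) = H := Subgroup.eq_of_le_of_card_ge hP (by rw [h4, card3 hL])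
      rw [← h5]
      exact isCoatom_of_card hL (cardN3 hL h6 P)
    · -- 4
      have hpg : IsPGroup 2 H := IsPGroup.of_card (n := 2) (by rw [h4]; norm_num)
      obtain ⟨V, hV⟩ := hpg.exists_le_sylow
      have h5 : H = (V : Subgroup L) := Subgroup.eq_of_le_of_card_ge hV (by rw [h4, card2 hL])
      rw [h5]
      exact isCoatom_of_card hL (cardNV hL V)
    · -- 6
      obtain ⟨P, hP⟩ := exists_sylow (p := 3) (M := H) (by rw [hL]; norm_num) (by rw [h4]; norm_num)
      have h5 : ((P : Subgroup L).subgroupOf H).index = 2 := by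
        have h6 := ((P : Subgroup L).subgroupOf H).card_mul_index
        rw [Nat.card_congr (Subgroup.subgroupOfEquivOfLe hP).toEquiv, card3 hL, h4] at h6
        omega
      have h7 : H ≤ Subgroup.normalizer ((P : Subgroup L) : Set L) :=
        (Subgroup.normal_subgroupOf_iff_le_normalizer hP).mp (Subgroup.normal_of_index_eq_two h5)
      have h8 : (H.subgroupOf (Subgroup.normalizer ((P : Subgroup L) : Set L))).index = 2 := by
        have h9 := (H.subgroupOf (Subgroup.normalizer ((P : Subgroup L) : Set L))).card_mul_index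
        rw [Nat.card_congr (Subgroup.subgroupOfEquivOfLe h7).toEquiv, cardN3 hL h6, h4] at h9
        omega
      exact isCoatom_normalizer_of hL h1 h2 (isCoatom_of_card hL (cardN3 hL h6 P))
        ((Subgroup.normal_subgroupOf_iff_le_normalizer h7).mp (Subgroup.normal_of_index_eq_two h8))
    · -- 12
      exact isCoatom_normalizer_of hL h1 h2 (isCoatom_of_card hL h4) Subgroup.le_normalizer

end L

end Cfsg.Agent.H547.Simple1092
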