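import Mathlib
import Cfsg.Agent.H491.SubgroupCount

/-!
# Counting subgroups of order `p ^ a` modulo `p ^ 2`: reduction to a Sylow subgroup (P. Hall)
-/

set_option autoImplicit false

namespace Cfsg.Agent.H547.SubCount

open scoped Pointwise
open Subgroup MulAction

universe u

variable {G : Type u} [Group G]

/-- the conjugation action of a subgroup on the subgroups -/
@[reducible] def conjAct (P : Subgroup G) : MulAction P (Subgroup G) :=
  MulAction.compHom (Subgroup G) (MulAut.conj.comp P.subtype)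

/-- weighted version of `dvd_card_of_invariant` -/
theorem dvd_sum_of_invariant {P X : Type*} [Group P] [MulAction P X] [Finite X] (d : ℕ) (c : X → ℕ)
    (n : ℕ) : ∀ S : Finset X, S.card = n → (∀ (g : P) (x : X), x ∈ S → g • x ∈ S) →
    (∀ (g : P) (x : X), x ∈ S → c (g • x) = c x) →
    (∀ x ∈ S, d ∣ Nat.card (MulAction.orbit P x)) → d ∣ ∑ x ∈ S, c x := by
  classical
  induction n using Nat.strong_induction_on with
  | _ n ih =>
    intro S hn hS hc hd
    rcases S.eq_empty_or_nonempty with rfl | ⟨x, hx⟩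
    · simp
    have hfin : (MulAction.orbit P x).Finite := Set.toFinite _
    set O : Finset X := hfin.toFinset with hO
    have hmem : ∀ y, y ∈ O ↔ y ∈ MulAction.orbit P x := fun y => hfin.mem_toFinset
    have hOS : O ⊆ S := by
      intro y hy
      obtain ⟨g, rfl⟩ := (hmem y).mp hy
      exact hS g x hx
    rw [← Finset.sum_sdiff hOS]
    refine dvd_add ?_ ?_
    · refine ih (S \ O).card ?_ (S \ O) rfl ?_ ?_ ?_
      · rw [← hn]
        apply Finset.card_lt_card
        refine Finset.ssubset_iff_subset_ne.mpr ⟨Finset.sdiff_subset, ?_⟩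
        intro h1
        have h2 : x ∈ S \ O := by rw [h1]; exact hx
        exact (Finset.mem_sdiff.mp h2).2 ((hmem x).mpr (mem_orbit_self x))
      · intro g y hy
        obtain ⟨hy1, hy2⟩ := Finset.mem_sdiff.mp hy
        refine Finset.mem_sdiff.mpr ⟨hS g y hy1, ?_⟩
        intro h1
        apply hy2
        rw [hmem] at h1 ⊢
        rw [← orbit_eq_iff.mpr h1, orbit_smul]
        exact mem_orbit_self y
      · intro g y hy
        exact hc g y (Finset.mem_sdiff.mp hy).1
      · intro y hy
        exact hd y (Finset.mem_sdiff.mp hy).1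
    · have h1 : ∑ y ∈ O, c y = ∑ y ∈ O, c x := by
        apply Finset.sum_congr rfl
        intro y hy
        obtain ⟨g, rfl⟩ := (hmem y).mp hy
        exact hc g x hx
      rw [h1, Finset.sum_const, smul_eq_mul]
      apply Dvd.dvd.mul_right
      have h2 := hd x hx
      rwa [Nat.card_coe_set_eq, Set.ncard_eq_toFinset_card _ hfin] at h2

theorem dvd_card_of_invariant {P X : Type*} [Group P] [MulAction P X] [Finite X] (d : ℕ)
    (S : Finset X) (hS : ∀ (g : P) (x : X), x ∈ S → g • x ∈ S)
    (hd : ∀ x ∈ S, d ∣ Nat.card (MulAction.orbit P x)) : d ∣ S.card := by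
  have h1 := dvd_sum_of_invariant (P := P) d (fun _ : X => 1) S.card S rfl hS (fun _ _ _ => rfl) hd
  simpa using h1

/-! ### conjugation -/

theorem conj_smul_eq_iff {H : Subgroup G} [Finite G] {g : G} :
    MulAut.conj g • H = H ↔ g ∈ Subgroup.normalizer (H : Set G) := by
  constructor
  · intro h
    rw [Subgroup.mem_normalizer_iff]
    intro x
    constructor
    · intro hx
      rw [← h]
      exact Subgroup.smul_mem_pointwise_smul x (MulAut.conj g) H hx
    · intro hx
      rw [← h] at hx
      obtain ⟨y, hy, hyx⟩ := hx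
      have h1 : g * y * g⁻¹ = g * x * g⁻¹ := hyx
      have h2 : y = x := by simpa using h1
      rw [← h2]
      exact hy
  · intro h
    apply Subgroup.eq_of_le_of_card_ge
    · rintro _ ⟨y, hy, rfl⟩
      exact (Subgroup.mem_normalizer_iff.mp h y).mp hy
    · exact (Nat.card_congr (Subgroup.equivSMul (MulAut.conj g) H).toEquiv).le

theorem mem_conj_smul {H : Subgroup G} {g x : G} :
    x ∈ MulAut.conj g • H ↔ g⁻¹ * x * g ∈ H := by
  constructor
  · rintro ⟨y, hy, rfl⟩
    change g⁻¹ * (g * y * g⁻¹) * g ∈ H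
    have h1 : g⁻¹ * (g * y * g⁻¹) * g = y := by group
    rw [h1]
    exact hy
  · intro h1
    refine ⟨g⁻¹ * x * g, h1, ?_⟩
    change g * (g⁻¹ * x * g) * g⁻¹ = x
    group

theorem card_conj (g : G) (H : Subgroup G) : Nat.card ↥(MulAut.conj g • H) = Nat.card H :=
  (Nat.card_congr (Subgroup.equivSMul (MulAut.conj g) H).toEquiv).symm

/-- subgroups of a subgroup -/
theorem card_sub [Finite G] (S₀ : Subgroup G) (m : ℕ) :
    Nat.card {H : Subgroup S₀ // Nat.card H = m} =
      Nat.card {H : Subgroup G // H ≤ S₀ ∧ Nat.card H = m} := by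
  refine Nat.card_congr
    { toFun := fun H => ⟨H.1.map S₀.subtype, Subgroup.map_subtype_le _, ?_⟩
      invFun := fun H => ⟨H.1.subgroupOf S₀, ?_⟩
      left_inv := ?_
      right_inv := ?_ }
  · exact (Nat.card_congr (H.1.equivMapOfInjective S₀.subtype S₀.subtype_injective).toEquiv).symm.trans H.2
  · exact (Nat.card_congr (Subgroup.subgroupOfEquivOfLe H.2.1).toEquiv).trans H.2.2
  · rintro ⟨H, hH⟩
    apply Subtype.ext
    exact Subgroup.comap_map_eq_self_of_injective S₀.subtype_injective H
  · rintro ⟨H, hH, hH2⟩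
    apply Subtype.ext
    exact Subgroup.map_subgroupOf_eq_of_le hH

/-- orbits of `p`-groups -/
theorem dvd_orbit [Finite G] {p : ℕ} [hp : Fact p.Prime] {T : Subgroup G} (hT : IsPGroup p T)
    {H : Subgroup G} (hH : ¬ T ≤ Subgroup.normalizer (H : Set G)) :
    letI := conjAct T
    p ∣ Nat.card (MulAction.orbit T H) := by
  let _ := conjAct T
  obtain ⟨n, hn⟩ := hT.card_orbit H
  change p ∣ Nat.card (MulAction.orbit T H)
  rw [hn]
  refine dvd_pow_self p ?_
  rintro rfl
  apply hH
  rw [pow_zero, Nat.card_coe_set_eq, Set.ncard_eq_one] at hn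
  obtain ⟨K, hK⟩ := hn
  have h1 : H = K := by
    have h2 : H ∈ MulAction.orbit T H := mem_orbit_self H
    rw [hK] at h2
    exact h2
  subst h1
  intro t ht
  have h2 : (⟨t, ht⟩ : T) • H ∈ MulAction.orbit T H := ⟨⟨t, ht⟩, rfl⟩
  rw [hK] at h2
  exact conj_smul_eq_iff.mp h2

/-- The number of subgroups of order `p ^ a` of `S₀` which are normalised by the `p`-group `T`. -/
theorem card_normal [Finite G] [Fintype (Subgroup G)] {p : ℕ} [hp : Fact p.Prime] (T S₀ : Subgroup G)
    (hT : IsPGroup p T) (hTS : T ≤ Subgroup.normalizer (S₀ : Set G)) {a : ℕ}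
    (ha : p ^ a ∣ Nat.card S₀) [DecidablePred fun H : Subgroup G => H ≤ S₀ ∧ Nat.card H = p ^ a]
    [DecidablePred fun H : Subgroup G => (H ≤ S₀ ∧ Nat.card H = p ^ a) ∧ T ≤ Subgroup.normalizer (H : Set G)] :
    (Finset.univ.filter fun H : Subgroup G => (H ≤ S₀ ∧ Nat.card H = p ^ a) ∧
      T ≤ Subgroup.normalizer (H : Set G)).card ≡ 1 [MOD p] := by
  classical
  let _ := conjAct T
  set A := Finset.univ.filter fun H : Subgroup G => H ≤ S₀ ∧ Nat.card H = p ^ a with hA
  set B := Finset.univ.filter fun H : Subgroup G => (H ≤ S₀ ∧ Nat.card H = p ^ a) ∧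
      T ≤ Subgroup.normalizer (H : Set G) with hB
  have hA1 : A.card ≡ 1 [MOD p] := by
    have h1 := Cfsg.Agent.H491.SubgroupCount.card_subgroups_modEq_one (G := S₀) p a hp.out ha
    have h2 : Nat.card {H : Subgroup S₀ // Nat.card H = p ^ a} = A.card := by
      rw [card_sub]
      exact Nat.subtype_card A (fun H => by rw [hA, Finset.mem_filter]; simp)
    rwa [h2] at h1
  have hBA : B ⊆ A := by
    intro H hH
    rw [hB, Finset.mem_filter] at hH
    exact Finset.mem_filter.mpr ⟨Finset.mem_univ _, hH.2.1⟩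
  have hd : p ∣ (A \ B).card := by
    apply dvd_card_of_invariant (P := T) p (A \ B)
    · intro g H hH
      obtain ⟨h1, h2⟩ := Finset.mem_sdiff.mp hH
      rw [hA, Finset.mem_filter] at h1
      have hgS : MulAut.conj (g : G) • S₀ = S₀ := conj_smul_eq_iff.mpr (hTS g.2)
      refine Finset.mem_sdiff.mpr ⟨?_, ?_⟩
      · refine Finset.mem_filter.mpr ⟨Finset.mem_univ _, ?_, ?_⟩
        · change MulAut.conj (g : G) • H ≤ S₀
          rw [← hgS]
          exact Subgroup.pointwise_smul_le_pointwise_smul_iff.mpr h1.2.1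
        · change Nat.card ↥(MulAut.conj (g : G) • H) = _
          rw [card_conj]
          exact h1.2.2
      · intro h3
        apply h2
        rw [hB, Finset.mem_filter] at h3 ⊢
        refine ⟨Finset.mem_univ _, h1.2, ?_⟩
        intro t ht
        have h4 : (g : G) * t * (g : G)⁻¹ ∈ Subgroup.normalizer ((MulAut.conj (g : G) • H : Subgroup G) : Set G) :=
          h3.2.2 (mul_mem (mul_mem g.2 ht) (inv_mem g.2))
        rw [← conj_smul_eq_iff] at h4 ⊢
        rw [← mul_smul, ← map_mul] at h4
        have h5 : (g : G) * t * (g : G)⁻¹ * g = g * t := by group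
        rw [h5, map_mul, mul_smul] at h4
        exact smul_left_cancel _ h4
    · intro H hH
      obtain ⟨h1, h2⟩ := Finset.mem_sdiff.mp hH
      rw [hA, Finset.mem_filter] at h1
      refine dvd_orbit hT ?_
      intro h3
      exact h2 (Finset.mem_filter.mpr ⟨Finset.mem_univ _, h1.2, h3⟩)
  have h1 : A.card = (A \ B).card + B.card := (Finset.card_sdiff_add_card_eq_card hBA).symm
  rw [h1] at hA1
  have h2 : (A \ B).card ≡ 0 [MOD p] := Nat.modEq_zero_iff_dvd.mpr hd
  have h3 := h2.add_right B.card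
  rw [zero_add] at h3
  exact h3.symm.trans hA1

theorem pow_eq {p : ℕ} (hp : p.Prime) {m n : ℕ} (hm : m ∣ p ^ n) (h1 : p ^ (n - 1) ≤ m)
    (h2 : m < p ^ n) : m = p ^ (n - 1) := by
  obtain ⟨k, hk, rfl⟩ := (Nat.dvd_prime_pow hp).mp hm
  have h3 : n - 1 ≤ k := (Nat.pow_le_pow_iff_right hp.one_lt).mp h1
  have h4 : k < n := (Nat.pow_lt_pow_iff_right hp.one_lt).mp h2
  congr 1
  omega

theorem orbit_card [Finite G] (T H : Subgroup G) :
    letI := conjAct T
    Nat.card (MulAction.orbit T H) * Nat.card ↥(T ⊓ Subgroup.normalizer (H : Set G)) = Nat.card T := by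
  let _ := conjAct T
  change Nat.card (MulAction.orbit T H) * Nat.card ↥(T ⊓ Subgroup.normalizer (H : Set G)) = Nat.card T
  have h1 : MulAction.stabilizer T H = (Subgroup.normalizer (H : Set G)).subgroupOf T := by
    ext t
    exact conj_smul_eq_iff
  have h2 : Nat.card ((Subgroup.normalizer (H : Set G)).subgroupOf T) =
      Nat.card ↥(T ⊓ Subgroup.normalizer (H : Set G)) := by
    rw [← Subgroup.inf_subgroupOf_right, inf_comm]
    exact Nat.card_congr (Subgroup.subgroupOfEquivOfLe inf_le_left).toEquiv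
  rw [Nat.card_coe_set_eq, ← MulAction.index_stabilizer, h1, ← h2, Subgroup.index_mul_card]

set_option linter.unusedSectionVars false

variable {p : ℕ} [hp : Fact p.Prime]

/-- the order of a `p`-subgroup divides the order of a Sylow subgroup -/
theorem card_dvd [Finite G] (P : Sylow p G) {H : Subgroup G} (hH : IsPGroup p H) :
    Nat.card H ∣ Nat.card (P : Subgroup G) := by
  obtain ⟨Q, hQ⟩ := hH.exists_le_sylow
  have h1 : Nat.card (Q : Subgroup G) = Nat.card (P : Subgroup G) := by
    rw [Q.card_eq_multiplicity, P.card_eq_multiplicity]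
  rw [← h1]
  exact Subgroup.card_dvd_of_le hQ

theorem le_of_le_normalizer (P : Sylow p G) {H : Subgroup G} (hH : IsPGroup p H)
    (h : (P : Subgroup G) ≤ Subgroup.normalizer (H : Set G)) : H ≤ (P : Subgroup G) := by
  have h1 : IsPGroup p ((P : Subgroup G) ⊔ H : Subgroup G) := P.2.to_sup_of_normal_right' hH h
  have h2 := P.3 h1 le_sup_left
  rw [← h2]
  exact le_sup_right

/-- A subgroup of index `p` (in the sense of orders) of a `p`-group `R` is normal. -/
theorem le_normalizer_of_card [Finite G] {R Q : Subgroup G} {n : ℕ} (hn : 0 < n)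
    (hR : Nat.card R = p ^ n) (hQR : Q ≤ R) (hQ : Nat.card Q = p ^ (n - 1)) :
    R ≤ Subgroup.normalizer (Q : Set G) := by
  have h1 : (Q.subgroupOf R).index = p := by
    have h2 := Subgroup.card_mul_index (Q.subgroupOf R)
    rw [Nat.card_congr (Subgroup.subgroupOfEquivOfLe hQR).toEquiv, hQ, hR] at h2
    have h3 : p ^ n = p ^ (n - 1) * p := by
      rw [← pow_succ]; congr 1; omega
    rw [h3] at h2
    exact Nat.eq_of_mul_eq_mul_left (pow_pos hp.out.pos _) h2
  have h2 : (Q.subgroupOf R).Normal := by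
    apply Subgroup.normal_of_index_eq_minFac_card
    rw [h1, hR, Nat.pow_minFac hn.ne', hp.out.minFac_eq]
  exact (Subgroup.normal_subgroupOf_iff_le_normalizer hQR).mp h2

open Classical in
/-- the number of normal subgroups of order `p ^ a` of `R` outside `P` is divisible by `p`. -/
theorem dvd_card_fiber [Finite G] [Fintype (Subgroup G)] (P : Sylow p G) {a n : ℕ}
    (ha : a < n) {R : Subgroup G} (hR : Nat.card R = p ^ n)
    (hPR : Nat.card ↥((P : Subgroup G) ⊓ R) = p ^ (n - 1)) :
    p ∣ (Finset.univ.filter fun H : Subgroup G => ((H ≤ R ∧ Nat.card H = p ^ a) ∧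
      R ≤ Subgroup.normalizer (H : Set G)) ∧ ¬ H ≤ (P : Subgroup G)).card := by
  have hRp : IsPGroup p R := IsPGroup.of_card hR
  have h1 := card_normal R R hRp Subgroup.le_normalizer (a := a) (by
    rw [hR]; exact pow_dvd_pow p ha.le)
  have h2 := card_normal R ((P : Subgroup G) ⊓ R) hRp
    (le_normalizer_of_card (by omega) hR inf_le_right hPR) (a := a) (by
    rw [hPR]; exact pow_dvd_pow p (by omega))
  set B1 := Finset.univ.filter fun H : Subgroup G => (H ≤ R ∧ Nat.card H = p ^ a) ∧
      R ≤ Subgroup.normalizer (H : Set G) with hB1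
  set B2 := Finset.univ.filter fun H : Subgroup G => (H ≤ (P : Subgroup G) ⊓ R ∧ Nat.card H = p ^ a) ∧
      R ≤ Subgroup.normalizer (H : Set G) with hB2
  have h3 : B2 ⊆ B1 := by
    intro H hH
    rw [hB2, Finset.mem_filter] at hH
    rw [hB1, Finset.mem_filter]
    exact ⟨Finset.mem_univ _, ⟨hH.2.1.1.trans inf_le_right, hH.2.1.2⟩, hH.2.2⟩
  have h4 : (Finset.univ.filter fun H : Subgroup G => ((H ≤ R ∧ Nat.card H = p ^ a) ∧
      R ≤ Subgroup.normalizer (H : Set G)) ∧ ¬ H ≤ (P : Subgroup G)) = B1 \ B2 := by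
    ext H
    rw [Finset.mem_sdiff, Finset.mem_filter, hB1, hB2, Finset.mem_filter, Finset.mem_filter]
    constructor
    · rintro ⟨-, h5, h6⟩
      exact ⟨⟨Finset.mem_univ _, h5⟩, fun h7 => h6 (h7.2.1.1.trans inf_le_left)⟩
    · rintro ⟨⟨-, h5⟩, h6⟩
      exact ⟨Finset.mem_univ _, h5, fun h7 => h6 ⟨Finset.mem_univ _, ⟨le_inf h7 h5.1.1, h5.1.2⟩, h5.2⟩⟩
  rw [h4]
  have h5 : (B1 \ B2).card + B2.card = B1.card := Finset.card_sdiff_add_card_eq_card h3
  rw [← h5] at h1
  have h6 : (B1 \ B2).card + 1 ≡ 0 + 1 [MOD p] := by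
    rw [zero_add]
    exact (Nat.ModEq.add_left _ h2.symm).trans h1
  exact Nat.modEq_zero_iff_dvd.mp (Nat.ModEq.add_right_cancel' 1 h6)

open Classical in
/-- **P. Hall**: the number of subgroups of order `p ^ a`, `p ^ (a + 1)` dividing the order of `G`,
agrees modulo `p ^ 2` with the number for a Sylow `p`-subgroup. -/
theorem card_modEq_sylow [Finite G] (P : Sylow p G) {a n : ℕ} (hn : Nat.card (P : Subgroup G) = p ^ n)
    (ha : a < n) : Nat.card {H : Subgroup G // Nat.card H = p ^ a} ≡
      Nat.card {H : (Subgroup (P : Subgroup G)) // Nat.card H = p ^ a} [MOD p ^ 2] := by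
  have hft : Fintype (Subgroup G) := Fintype.ofFinite _
  let _ := conjAct (P : Subgroup G)
  set X : Finset (Subgroup G) := Finset.univ.filter fun H => Nat.card H = p ^ a with hX
  set XP : Finset (Subgroup G) := X.filter fun H => H ≤ (P : Subgroup G) with hXP
  set X' : Finset (Subgroup G) := X.filter fun H => ¬ H ≤ (P : Subgroup G) with hX'
  have hcX : Nat.card {H : Subgroup G // Nat.card H = p ^ a} = X.card :=
    Nat.subtype_card X (fun H => by rw [hX, Finset.mem_filter]; simp)
  have hcXP : Nat.card {H : (Subgroup (P : Subgroup G)) // Nat.card H = p ^ a} = XP.card := by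
    rw [card_sub]
    exact Nat.subtype_card XP (fun H => by
      rw [hXP, Finset.mem_filter, hX, Finset.mem_filter]
      constructor
      · rintro ⟨⟨-, h1⟩, h2⟩; exact ⟨h2, h1⟩
      · rintro ⟨h2, h1⟩; exact ⟨⟨Finset.mem_univ _, h1⟩, h2⟩)
  have hsum : XP.card + X'.card = X.card := Finset.card_filter_add_card_filter_not (s := X) _
  rw [hcX, hcXP, ← hsum]
  suffices h : p ^ 2 ∣ X'.card by
    have h1 : X'.card ≡ 0 [MOD p ^ 2] := Nat.modEq_zero_iff_dvd.mpr h
    exact Nat.ModEq.add_left XP.card h1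
  have hgP : ∀ g : (P : Subgroup G), MulAut.conj (g : G) • (P : Subgroup G) = P := fun g =>
    conj_smul_eq_iff.mpr (Subgroup.le_normalizer g.2)
  have hgPle : ∀ (g : (P : Subgroup G)) (H : Subgroup G), MulAut.conj (g : G) • H ≤ (P : Subgroup G) ↔
      H ≤ (P : Subgroup G) := by
    intro g H
    constructor
    · intro h x hx
      have h1 := h (Subgroup.smul_mem_pointwise_smul x (MulAut.conj (g : G)) H hx)
      have h2 : (g : G) * x * (g : G)⁻¹ ∈ (P : Subgroup G) := h1
      have h3 := mul_mem (mul_mem (inv_mem g.2) h2) g.2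
      have h4 : (g : G)⁻¹ * ((g : G) * x * (g : G)⁻¹) * g = x := by group
      rwa [h4] at h3
    · intro h x hx
      rw [mem_conj_smul] at hx
      have h3 := mul_mem (mul_mem g.2 (h hx)) (inv_mem g.2)
      have h4 : (g : G) * ((g : G)⁻¹ * x * (g : G)) * (g : G)⁻¹ = x := by group
      rwa [h4] at h3
  -- membership
  have hmemX' : ∀ H, H ∈ X' ↔ Nat.card H = p ^ a ∧ ¬ H ≤ (P : Subgroup G) := by
    intro H
    rw [hX', Finset.mem_filter, hX, Finset.mem_filter]
    simp
  have hpg : ∀ H ∈ X', IsPGroup p H := fun H hH => IsPGroup.of_card ((hmemX' H).mp hH).1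
  have hnn : ∀ H ∈ X', ¬ (P : Subgroup G) ≤ Subgroup.normalizer (H : Set G) := by
    intro H hH h1
    exact ((hmemX' H).mp hH).2 (le_of_le_normalizer P (hpg H hH) h1)
  have hltn : ∀ H ∈ X', Nat.card ↥((P : Subgroup G) ⊓ Subgroup.normalizer (H : Set G)) < p ^ n := by
    intro H hH
    rw [← hn]
    refine lt_of_le_of_ne (Subgroup.card_le_of_le inf_le_left) ?_
    intro h1
    have h2 := Subgroup.eq_of_le_of_card_ge (inf_le_left :
      (P : Subgroup G) ⊓ Subgroup.normalizer (H : Set G) ≤ (P : Subgroup G)) h1.ge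
    exact hnn H hH (inf_eq_left.mp h2)
  set Y : Finset (Subgroup G) := X'.filter fun H =>
    Nat.card ↥((P : Subgroup G) ⊓ Subgroup.normalizer (H : Set G)) = p ^ (n - 1) with hY
  set W : Finset (Subgroup G) := X'.filter fun H =>
    ¬ Nat.card ↥((P : Subgroup G) ⊓ Subgroup.normalizer (H : Set G)) = p ^ (n - 1) with hW
  have hsum2 : Y.card + W.card = X'.card := Finset.card_filter_add_card_filter_not (s := X') _
  rw [← hsum2]
  refine dvd_add ?_ ?_
  · -- `Y`
    set R : Finset (Subgroup G) := Finset.univ.filter fun R =>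
      Nat.card R = p ^ n ∧ Nat.card ↥((P : Subgroup G) ⊓ R) = p ^ (n - 1) with hR
    let c : Subgroup G → ℕ := fun R => (Finset.univ.filter fun H : Subgroup G =>
      ((H ≤ R ∧ Nat.card H = p ^ a) ∧ R ≤ Subgroup.normalizer (H : Set G)) ∧ ¬ H ≤ (P : Subgroup G)).card
    let f : Subgroup G → Subgroup G := fun H => H ⊔ ((P : Subgroup G) ⊓ Subgroup.normalizer (H : Set G))
    -- facts on `Y`
    have hYf : ∀ H ∈ Y, f H ∈ R ∧ f H ≤ Subgroup.normalizer (H : Set G) := by
      intro H hH
      obtain ⟨hH1, hH2⟩ := Finset.mem_filter.mp hH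
      have hHnP := ((hmemX' H).mp hH1).2
      have hQp : IsPGroup p ↥((P : Subgroup G) ⊓ Subgroup.normalizer (H : Set G)) := P.2.to_le inf_le_left
      have hfp : IsPGroup p (f H) := by
        have h1 := hQp.to_sup_of_normal_right' (hpg H hH1) inf_le_right
        rwa [sup_comm] at h1
      have hfd : Nat.card (f H) ∣ p ^ n := hn ▸ card_dvd P hfp
      have hQf : (P : Subgroup G) ⊓ Subgroup.normalizer (H : Set G) ≤ f H := le_sup_right
      have hHf : H ≤ f H := le_sup_left
      have hlt : p ^ (n - 1) < Nat.card (f H) := by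
        rw [← hH2]
        refine lt_of_le_of_ne (Subgroup.card_le_of_le hQf) ?_
        intro h1
        have h2 := Subgroup.eq_of_le_of_card_ge hQf h1.ge
        apply hHnP
        rw [← h2] at hHf
        exact hHf.trans inf_le_left
      have hfc : Nat.card (f H) = p ^ n := by
        by_contra hne
        have h1 : Nat.card (f H) < p ^ n :=
          lt_of_le_of_ne (Nat.le_of_dvd (pow_pos hp.out.pos _) hfd) hne
        exact hlt.ne' (pow_eq hp.out hfd hlt.le h1)
      refine ⟨Finset.mem_filter.mpr ⟨Finset.mem_univ _, hfc, ?_⟩, ?_⟩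
      · refine pow_eq hp.out ?_ ?_ ?_
        · rw [← hn]
          exact Subgroup.card_dvd_of_le inf_le_left
        · rw [← hH2]
          exact Subgroup.card_le_of_le (le_inf inf_le_left hQf)
        · rw [← hfc]
          refine lt_of_le_of_ne (Subgroup.card_le_of_le inf_le_right) ?_
          intro h1
          have h2 := Subgroup.eq_of_le_of_card_ge (inf_le_right : (P : Subgroup G) ⊓ f H ≤ f H) h1.ge
          exact hHnP (hHf.trans (inf_eq_right.mp h2))
      · exact sup_le Subgroup.le_normalizer inf_le_right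
    have hcardY : Y.card = ∑ S ∈ R, c S := by
      rw [Finset.card_eq_sum_card_fiberwise (f := f) (t := R) (fun H hH => (hYf H hH).1)]
      refine Finset.sum_congr rfl ?_
      intro S hS
      obtain ⟨-, hS1, hS2⟩ := Finset.mem_filter.mp hS
      congr 1
      ext H
      constructor
      · intro hHf
        obtain ⟨hH, rfl⟩ := Finset.mem_filter.mp hHf
        obtain ⟨h1, h2⟩ := hYf H hH
        have hH1 := (Finset.mem_filter.mp hH).1
        exact Finset.mem_filter.mpr
          ⟨Finset.mem_univ _, ⟨⟨le_sup_left, ((hmemX' H).mp hH1).1⟩, h2⟩, ((hmemX' H).mp hH1).2⟩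
      · intro hHf
        obtain ⟨-, ⟨⟨h1, h2⟩, h3⟩, h4⟩ := Finset.mem_filter.mp hHf
        have hHX' : H ∈ X' := (hmemX' H).mpr ⟨h2, h4⟩
        have hle : (P : Subgroup G) ⊓ S ≤ (P : Subgroup G) ⊓ Subgroup.normalizer (H : Set G) :=
          inf_le_inf_left _ h3
        have hc1 : Nat.card ↥((P : Subgroup G) ⊓ Subgroup.normalizer (H : Set G)) = p ^ (n - 1) := by
          refine pow_eq hp.out ?_ ?_ (hltn H hHX')
          · rw [← hn]
            exact Subgroup.card_dvd_of_le inf_le_left
          · rw [← hS2]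
            exact Subgroup.card_le_of_le hle
        have hHY : H ∈ Y := Finset.mem_filter.mpr ⟨hHX', hc1⟩
        refine Finset.mem_filter.mpr ⟨hHY, ?_⟩
        have h5 : (P : Subgroup G) ⊓ S = (P : Subgroup G) ⊓ Subgroup.normalizer (H : Set G) :=
          Subgroup.eq_of_le_of_card_ge hle (by rw [hc1, hS2])
        have h6 : f H ≤ S := sup_le h1 (h5 ▸ inf_le_right)
        refine Subgroup.eq_of_le_of_card_ge h6 ?_
        have h7 := (Finset.mem_filter.mp (hYf H hHY).1).2.1
        rw [h7, hS1]
    have hcd : ∀ S ∈ R, p ∣ c S := by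
      intro S hS
      obtain ⟨-, hS1, hS2⟩ := Finset.mem_filter.mp hS
      exact dvd_card_fiber P ha hS1 hS2
    have h1 : ∑ S ∈ R, c S = p * ∑ S ∈ R, c S / p := by
      rw [Finset.mul_sum]
      refine Finset.sum_congr rfl ?_
      intro S hS
      rw [Nat.mul_div_cancel' (hcd S hS)]
    rw [hcardY, h1, pow_two]
    refine mul_dvd_mul_left p ?_
    refine dvd_sum_of_invariant (P := (P : Subgroup G)) p (fun S => c S / p) R.card R rfl ?_ ?_ ?_
    · intro g S hS
      obtain ⟨-, hS1, hS2⟩ := Finset.mem_filter.mp hS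
      refine Finset.mem_filter.mpr ⟨Finset.mem_univ _, ?_, ?_⟩
      · exact (card_conj (g : G) S).trans hS1
      · change Nat.card ↥((P : Subgroup G) ⊓ MulAut.conj (g : G) • S) = _
        rw [← hS2, ← card_conj (g : G) ((P : Subgroup G) ⊓ S), Subgroup.smul_inf, hgP]
    · intro g S hS
      change c (MulAut.conj (g : G) • S) / p = c S / p
      congr 1
      symm
      refine Finset.card_bij (fun H _ => MulAut.conj (g : G) • H) ?_ ?_ ?_
      · intro H hH
        obtain ⟨-, ⟨⟨h1, h2⟩, h3⟩, h4⟩ := Finset.mem_filter.mp hH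
        refine Finset.mem_filter.mpr ⟨Finset.mem_univ _, ⟨⟨?_, ?_⟩, ?_⟩, ?_⟩
        · exact Subgroup.pointwise_smul_le_pointwise_smul_iff.mpr h1
        · rw [card_conj]; exact h2
        · intro x hx
          rw [mem_conj_smul] at hx
          have h5 := h3 hx
          rw [← conj_smul_eq_iff] at h5 ⊢
          rw [← mul_smul, ← map_mul]
          have h6 : x * (g : G) = (g : G) * ((g : G)⁻¹ * x * g) := by group
          rw [h6, map_mul, mul_smul, h5]
        · intro h5
          exact h4 ((hgPle g H).mp h5)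
      · intro H _ K _ h5
        exact smul_left_cancel _ h5
      · intro K hK
        obtain ⟨-, ⟨⟨h1, h2⟩, h3⟩, h4⟩ := Finset.mem_filter.mp hK
        have hK' : MulAut.conj (g : G) • (MulAut.conj (g : G))⁻¹ • K = K := smul_inv_smul _ _
        refine ⟨(MulAut.conj (g : G))⁻¹ • K, ?_, hK'⟩
        refine Finset.mem_filter.mpr ⟨Finset.mem_univ _, ⟨⟨?_, ?_⟩, ?_⟩, ?_⟩
        · rw [← hK'] at h1
          exact Subgroup.pointwise_smul_le_pointwise_smul_iff.mp h1
        · rw [← map_inv, card_conj]; exact h2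
        · intro x hx
          have hx' : (g : G) * x * (g : G)⁻¹ ∈ MulAut.conj (g : G) • S :=
            Subgroup.smul_mem_pointwise_smul x (MulAut.conj (g : G)) S hx
          have h5 := h3 hx'
          rw [← conj_smul_eq_iff] at h5 ⊢
          rw [← map_inv, ← mul_smul, ← map_mul]
          have h6 : x * (g : G)⁻¹ = (g : G)⁻¹ * ((g : G) * x * (g : G)⁻¹) := by group
          rw [h6, map_mul, mul_smul, h5]
        · intro h5
          apply h4
          rw [← hK']
          exact (hgPle g _).mpr h5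
    · intro S hS
      obtain ⟨-, hS1, hS2⟩ := Finset.mem_filter.mp hS
      refine dvd_orbit P.2 ?_
      intro h1
      have h2 := le_of_le_normalizer P (IsPGroup.of_card hS1) h1
      have h3 := hS2
      rw [inf_eq_right.mpr h2, hS1] at h3
      have h4 : p ^ (n - 1) < p ^ n := Nat.pow_lt_pow_right hp.out.one_lt (by omega)
      omega
  · -- `W`
    refine dvd_card_of_invariant (P := (P : Subgroup G)) (p ^ 2) W ?_ ?_
    · intro g H hH
      obtain ⟨hH1, hH2⟩ := Finset.mem_filter.mp hH
      obtain ⟨h1, h2⟩ := (hmemX' H).mp hH1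
      refine Finset.mem_filter.mpr ⟨(hmemX' _).mpr ⟨?_, ?_⟩, ?_⟩
      · exact (card_conj (g : G) H).trans h1
      · exact fun h3 => h2 ((hgPle g H).mp h3)
      · have h3 : Nat.card (MulAction.orbit (P : Subgroup G) H) *
            Nat.card ↥((P : Subgroup G) ⊓ Subgroup.normalizer (H : Set G)) = Nat.card (P : Subgroup G) :=
          orbit_card (P : Subgroup G) H
        have h4 : Nat.card (MulAction.orbit (P : Subgroup G) (g • H)) *
            Nat.card ↥((P : Subgroup G) ⊓ Subgroup.normalizer ((g • H : Subgroup G) : Set G)) =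
            Nat.card (P : Subgroup G) :=
          orbit_card (P : Subgroup G) (g • H)
        rw [MulAction.orbit_smul, ← h3] at h4
        have h5 : 0 < Nat.card (MulAction.orbit (P : Subgroup G) H) := by
          rcases Nat.eq_zero_or_pos (Nat.card (MulAction.orbit (P : Subgroup G) H)) with h6 | h6
          · rw [h6, zero_mul] at h3
            exact absurd h3.symm Nat.card_pos.ne'
          · exact h6
        rw [Nat.eq_of_mul_eq_mul_left h5 h4]
        exact hH2
    · intro H hH
      obtain ⟨hH1, hH2⟩ := Finset.mem_filter.mp hH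
      have h1 := orbit_card (P : Subgroup G) H
      have h2 := hltn H hH1
      obtain ⟨k, hk, hk2⟩ := (Nat.dvd_prime_pow hp.out).mp
        (hn ▸ Subgroup.card_dvd_of_le (inf_le_left :
          (P : Subgroup G) ⊓ Subgroup.normalizer (H : Set G) ≤ (P : Subgroup G)))
      rw [hk2] at h1 h2 hH2
      have h3 : k < n := (Nat.pow_lt_pow_iff_right hp.out.one_lt).mp h2
      have h4 : k ≠ n - 1 := by
        rintro rfl
        exact hH2 rfl
      have h5 : p ^ n = p ^ (n - k) * p ^ k := by
        rw [← pow_add]; congr 1; omega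
      rw [hn, h5] at h1
      have h6 := Nat.eq_of_mul_eq_mul_right (pow_pos hp.out.pos k) h1
      change p ^ 2 ∣ Nat.card (MulAction.orbit (P : Subgroup G) H)
      rw [h6]
      exact pow_dvd_pow p (by omega)

end Cfsg.Agent.H547.SubCount
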